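import Cfsg.Agent.Lib.Frobenius.Compl
import Cfsg.Agent.Lib.Perm.Socle
import Cfsg.Agent.Lib.Perm.FieldOf
import Cfsg.Agent.Lib.Perm.Frob

/-!
# Linear groups acting regularly on the nonzero vectors (Zassenhaus' theorem on near-fields)
-/

set_option autoImplicit false

namespace Cfsg.Lib.Frobenius

open Subgroup Cfsg.Lib.BG Cfsg.Lib.Core Module
open scoped MatrixGroups

theorem geom_arith {r d a b : ℕ} (hr : 3 ≤ r) (ho : Odd r) (hd : 2 ≤ d) (h : a * b + 1 = r ^ d)
    (ha : a ∣ r - 1) (hb : b ∣ 120) : (d = 2 ∧ r + 1 ∣ b) ∨ (r = 3 ∧ 40 ∣ b) := by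
  obtain ⟨x, rfl⟩ : ∃ x, r = x + 1 := ⟨r - 1, by omega⟩
  obtain ⟨c, hc⟩ := ha
  rw [Nat.add_sub_cancel] at hc
  have h1 : ∑ i ∈ Finset.range d, (x + 1) ^ i ∣ b := by
    have h2 := geom_sum_mul_add x d
    rw [← h, add_left_inj] at h2
    generalize ∑ i ∈ Finset.range d, (x + 1) ^ i = s at h2
    refine Dvd.intro c (Nat.eq_of_mul_eq_mul_left (Nat.pos_of_ne_zero (n := a) ?_) ?_)
    · rintro rfl; omega
    · rw [← h2, hc]; ring
  have h2 := h1.trans hb
  have h3 := Nat.le_of_dvd (by decide) h2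
  obtain ⟨k, hk⟩ := ho
  match d, hd with
  | 2, _ => exact Or.inl ⟨rfl, by simpa [Finset.sum_range_succ, add_comm] using h1⟩
  | 3, _ =>
    simp only [Finset.sum_range_succ, Finset.range_zero, Finset.sum_empty] at h2 h3
    have : x < 10 := by nlinarith
    interval_cases x <;> omega
  | 4, _ =>
    simp only [Finset.sum_range_succ, Finset.range_zero, Finset.sum_empty] at h1 h3
    have : x < 4 := by
      by_contra! h4
      have : 5 ^ 3 ≤ (x + 1) ^ 3 := Nat.pow_le_pow_left (by omega) 3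
      omega
    interval_cases x <;> omega
  | e + 5, _ =>
    have h4 : ∑ i ∈ Finset.range 5, 3 ^ i ≤ ∑ i ∈ Finset.range (e + 5), (x + 1) ^ i :=
      (Finset.sum_le_sum fun i _ => Nat.pow_le_pow_left hr i).trans
        (Finset.sum_le_sum_of_subset (Finset.range_mono (by omega)))
    exact absurd (h4.trans h3) (by decide)

theorem natCard_ne_zero_subtype (α : Type*) [Zero α] [Finite α] :
    Nat.card {v : α // v ≠ 0} = Nat.card α - 1 := by
  classical
  cases nonempty_fintype α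
  simp [Fintype.card_subtype_compl]

theorem comm_of_subring {R V : Type*} [CommRing R] [AddCommGroup V] [Module R V] [Finite V]
    (S : Subring (Module.End R V)) (h : ∀ r ∈ S, ∀ v, r v = 0 → r = 0 ∨ v = 0) {a b : Module.End R V}
    (ha : a ∈ S) (hb : b ∈ S) : a * b = b * a := by
  rcases subsingleton_or_nontrivial V with h' | h'
  · exact LinearMap.ext fun v => Subsingleton.elim _ _
  haveI : Finite (Module.End R V) := DFunLike.finite _
  haveI : NoZeroDivisors S := ⟨fun {x y} e => or_iff_not_imp_left.2 fun x0 => Subtype.ext <|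
    LinearMap.ext fun v => (h x x.2 _ (LinearMap.congr_fun (congrArg Subtype.val e) v)).resolve_left
      fun e => x0 (Subtype.ext e)⟩
  haveI : IsDomain S := NoZeroDivisors.to_isDomain S
  exact congrArg Subtype.val ((Finite.isDomain_to_isField S).mul_comm ⟨a, ha⟩ ⟨b, hb⟩)

theorem le_of_sl_two_five {G : Type*} [Group G] {J K : Subgroup G} (e : J ≃* SL(2, ZMod 5))
    (h : ∀ x, orderOf x = 3 → x ∈ K) : J ≤ K := fun x hx => by
  haveI : Fact (Nat.Prime 3) := ⟨Nat.prime_three⟩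
  let H := K.comap (J.subtype.comp e.symm.toMonoidHom)
  have h1 : ∀ y, y ^ 3 = 1 → y ≠ 1 → y ∈ H := fun y h1 h2 =>
    h _ ((orderOf_injective (J.subtype.comp e.symm.toMonoidHom)
      (J.subtype_injective.comp e.symm.injective) y).trans (orderOf_eq_prime h1 h2))
  have ha := h1 _ sl5_rels.1 (by decide)
  have hb := h1 _ sl5_rels.2.1 (by decide)
  have he := h1 _ sl5_rels.2.2.1 (by decide)
  have := sl_two_zmod_eq_top (H := H) sl5_rels.2.2.2.2.2.2.1 sl5_rels.2.2.2.2.2.2.2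
    (mul_mem (mul_mem (mul_mem he ha) ha) hb) (mul_mem (mul_mem (mul_mem ha ha) hb) he)
  simpa [H] using (this ▸ mem_top (e ⟨x, hx⟩) : e ⟨x, hx⟩ ∈ H)

theorem not_isSolvable_sl_two_five : ¬ Group.IsSolvable SL(2, ZMod 5) := fun _ =>
  haveI : Nontrivial SL(2, ZMod 5) := ⟨1, -1, by decide⟩
  (Group.IsSolvable.commutator_lt_top_of_nontrivial SL(2, ZMod 5)).ne
    (Linear.commutator_SL_eq_top (Or.inr ⟨2, by decide, by decide⟩))

variable {p : ℕ} [hp : Fact p.Prime] {V : Type*} [AddCommGroup V] [Module (ZMod p) V]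
  {G : Type*} [Group G] (ρ : G →* (V ≃ₗ[ZMod p] V))

/-- `A` leaves a proper nonzero subspace invariant. -/
def Red (A : Subgroup G) : Prop :=
  ∃ W : Submodule (ZMod p) V, W ≠ ⊥ ∧ W ≠ ⊤ ∧ ∀ a ∈ A, ∀ v ∈ W, ρ a v ∈ W

/-- `G` acts regularly on the nonzero vectors. -/
structure Reg : Prop where
  trans : ∀ v w : V, v ≠ 0 → w ≠ 0 → ∃ g, ρ g v = w
  fpf : ∀ g v, ρ g v = v → g = 1 ∨ v = 0

/-- The invariant subspace generated by a vector. -/
def orbSpan (A : Subgroup G) (v : V) : Submodule (ZMod p) V :=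
  sInf {W | v ∈ W ∧ ∀ a ∈ A, ∀ u ∈ W, ρ a u ∈ W}

variable {ρ} {A N : Subgroup G}

theorem mem_orbSpan (v : V) : v ∈ orbSpan ρ A v := Submodule.mem_sInf.2 fun _ h => h.1

theorem orbSpan_inv (v : V) : ∀ a ∈ A, ∀ u ∈ orbSpan ρ A v, ρ a u ∈ orbSpan ρ A v :=
  fun a ha u hu => Submodule.mem_sInf.2 fun W h => h.2 a ha u (Submodule.mem_sInf.1 hu W h)

theorem orbSpan_le {v : V} {W : Submodule (ZMod p) V} (hv : v ∈ W)
    (h : ∀ a ∈ A, ∀ u ∈ W, ρ a u ∈ W) : orbSpan ρ A v ≤ W := sInf_le ⟨hv, h⟩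

theorem reg_of_existsUnique {H : Subgroup (V ≃ₗ[ZMod p] V)}
    (h : ∀ v w : V, v ≠ 0 → w ≠ 0 → ∃! g : H, (g : V ≃ₗ[ZMod p] V) v = w) : Reg H.subtype :=
  ⟨fun v w hv hw => (h v w hv hw).exists, fun g v e => or_iff_not_imp_right.2 fun hv =>
    (h v v hv hv).unique e rfl⟩

theorem nontrivial_of_red (h : Red ρ A) : Nontrivial V := by
  obtain ⟨W, h1, -⟩ := h
  obtain ⟨w, -, w0⟩ := W.ne_bot_iff.1 h1
  exact ⟨w, 0, w0⟩

variable [Finite V]

theorem card_dvd_of_fpf (h : ∀ g v, ρ g v = v → g = 1 ∨ v = 0) {W : Submodule (ZMod p) V}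
    (hW : ∀ a ∈ A, ∀ v ∈ W, ρ a v ∈ W) : Nat.card A ∣ p ^ finrank (ZMod p) W - 1 := by
  letI : MulAction A {v : W // v ≠ 0} :=
    { smul := fun a v => ⟨⟨ρ a v.1, hW a a.2 _ v.1.2⟩, fun e => v.2 (Subtype.ext
        ((ρ a).map_eq_zero_iff.1 (congrArg Subtype.val e)))⟩
      one_smul := fun v => Subtype.ext (Subtype.ext (by change ρ 1 _ = _; simp))
      mul_smul := fun a b v => Subtype.ext (Subtype.ext (by
        change ρ (a * b) _ = ρ a (ρ b _); simp)) }
  have := Perm.card_dvd_of_semiregular (G := A) (N := ⊤) (α := {v : W // v ≠ 0}) fun v =>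
    eq_bot_iff.2 fun a ha => Subtype.ext (Subtype.ext ((h _ _ (congrArg (fun u => (u.1 : V))
      (MulAction.mem_stabilizer_iff.1 ha))).resolve_right fun e => v.2 (Subtype.ext e)))
  rwa [card_top, natCard_ne_zero_subtype, natCard_eq_pow_finrank (K := ZMod p) (V := W),
    Nat.card_zmod] at this

/-- Semilinearity: a normal abelian irreducible subgroup gives a field structure. -/
theorem exists_semilinear [Nontrivial V] [hA : A.Normal]
    (hc : ∀ a ∈ A, ∀ b ∈ A, ρ a * ρ b = ρ b * ρ a) (hi : ¬ Red ρ A) :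
    ∃ (F : Type) (_ : Field F) (_ : Fintype F) (e : V ≃+ F),
      ∀ g : G, ∃ (a : F) (σ : F ≃+* F), ∀ v : V, e (ρ g v) = a * σ (e v) := by
  obtain ⟨v₀, hv₀⟩ := exists_ne (0 : V)
  let τ : A →* Monoid.End (Multiplicative V) :=
    { toFun := fun a => AddMonoidHom.toMultiplicative (ρ a : V →+ V)
      map_one' := MonoidHom.ext fun v => by simp; rfl
      map_mul' := fun a b => MonoidHom.ext fun v => by simp; rfl }
  obtain ⟨F, _, _, f, ψ, h1, -, h2, h3⟩ := Perm.exists_field_of_irreducible τ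
    (fun a b => MonoidHom.ext fun v => LinearEquiv.congr_fun (hc a a.2 b b.2) v)
    (fun W hW => by
      by_contra! h
      refine hi ⟨AddSubgroup.toZModSubmodule p (Subgroup.toAddSubgroup' W), ?_, ?_,
        fun a ha v hv => hW ⟨a, ha⟩ v hv⟩
      · simpa using h.1
      · simpa using h.2) (v₀ := Multiplicative.ofAdd v₀) hv₀
  let e : V ≃+ F := ⟨Multiplicative.ofAdd.trans f, h1⟩
  refine ⟨F, inferInstance, inferInstance, e, fun g => ?_⟩
  have h4 : ∀ (a : A) v, e (ρ a v) = ψ a * e v := fun a v => h2 a (Multiplicative.ofAdd v)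
  obtain ⟨σ, hσ⟩ := Perm.exists_ringHom_of_semilinear h3
    ((e.symm.trans ((ρ g).toAddEquiv.trans e)).toAddMonoidHom) (by simp) (by
      rintro _ ⟨a, rfl⟩
      refine ⟨ψ ⟨g * a * g⁻¹, hA.conj_mem _ a.2 g⟩, fun r => ?_⟩
      obtain ⟨v, rfl⟩ := e.surjective r
      simp [← h4])
  exact ⟨_, RingEquiv.ofBijective σ (Finite.injective_iff_bijective.1 σ.injective), fun v => by
    simpa using hσ (e v)⟩

namespace Reg

variable (h : Reg ρ)
include h

theorem fpfGrp [Nontrivial V] : Fpf G :=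
  fpf_of_add (V := V)
    { toFun := fun g => (ρ g : V →+ V)
      map_one' := AddMonoidHom.ext fun v => by simp; rfl
      map_mul' := fun a b => AddMonoidHom.ext fun v => by simp; rfl } h.fpf

omit [Finite V] in
theorem eq_of_apply {a b : G} {v : V} (hv : v ≠ 0) (e : ρ a v = ρ b v) : a = b := by
  refine (inv_mul_eq_one.1 ((h.fpf (b⁻¹ * a) v ?_).resolve_right hv)).symm
  rw [map_mul, LinearEquiv.mul_apply, e, ← LinearEquiv.mul_apply, ← map_mul, inv_mul_cancel,
    map_one]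
  rfl

theorem card_add_one [Nontrivial V] : Nat.card G + 1 = Nat.card V := by
  obtain ⟨v, hv⟩ := exists_ne (0 : V)
  rw [Nat.card_congr (Equiv.ofBijective (fun g : G => (⟨ρ g v, by simpa using hv⟩ : {w : V // w ≠ 0}))
    ⟨fun a b e => h.eq_of_apply hv (congrArg Subtype.val e), fun w => by
      obtain ⟨g, hg⟩ := h.trans v w hv w.2
      exact ⟨g, Subtype.ext hg⟩⟩), natCard_ne_zero_subtype, Nat.sub_add_cancel Nat.card_pos]

theorem exists_pow (hA : Red ρ A) : ∃ k d : ℕ, 0 < k ∧ 2 ≤ d ∧ Nat.card V = (p ^ k) ^ d ∧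
    Nat.card A ∣ p ^ k - 1 := by
  obtain ⟨W, h1, h2, h3⟩ := hA
  have h4 := Nat.dvd_gcd (card_dvd_of_fpf h.fpf h3)
    (card_dvd_of_fpf (A := A) (W := ⊤) h.fpf fun _ _ _ _ => trivial)
  rw [Nat.pow_sub_one_gcd_pow_sub_one, finrank_top] at h4
  have h5 := Submodule.finrank_lt h2
  have h6 : 0 < finrank (ZMod p) W := Nat.pos_of_ne_zero fun e => h1 (Submodule.finrank_eq_zero.1 e)
  obtain ⟨d, hd⟩ := Nat.gcd_dvd_right (finrank (ZMod p) W) (finrank (ZMod p) V)
  refine ⟨_, d, Nat.gcd_pos_of_pos_left _ h6, ?_, by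
    rw [← pow_mul, ← hd, natCard_eq_pow_finrank (K := ZMod p), Nat.card_zmod], h4⟩
  have h7 := Nat.gcd_le_left (finrank (ZMod p) V) h6
  by_contra! h8
  interval_cases d <;> omega

theorem orbSpan_eq [hN : N.Normal] {u v : V} (hu : u ∈ orbSpan ρ N v) (u0 : u ≠ 0) :
    orbSpan ρ N u = orbSpan ρ N v := by
  have v0 : v ≠ 0 := by
    rintro rfl
    exact u0 (orbSpan_le (W := ⊥) (zero_mem _) (by simp) hu)
  obtain ⟨g, hg⟩ := h.trans u v u0 v0
  refine Submodule.eq_of_le_of_finrank_le (orbSpan_le hu (orbSpan_inv v)) ?_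
  rw [← (ρ g).finrank_map_eq (orbSpan ρ N u)]
  refine Submodule.finrank_mono (orbSpan_le ⟨u, mem_orbSpan u, hg⟩ ?_)
  rintro a ha _ ⟨w, hw, rfl⟩
  exact ⟨ρ (g⁻¹ * a * g) w, orbSpan_inv u _ (hN.conj_mem' a ha g) w hw, by simp⟩

theorem orbSpan_ne_top [N.Normal] (hN : Red ρ N) (v : V) : orbSpan ρ N v ≠ ⊤ := fun e => by
  obtain ⟨W, h1, h2, h3⟩ := hN
  obtain ⟨w, hw, w0⟩ := W.ne_bot_iff.1 h1
  exact h2 (top_le_iff.1 ((e.symm.trans (h.orbSpan_eq (e ▸ trivial) w0).symm).le.trans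
    (orbSpan_le hw h3)))

theorem eq_zero_of_red [N.Normal] (hN : Red ρ N) {r : V →ₗ[ZMod p] V}
    (hr : ∀ v, r v ∈ orbSpan ρ N v) {v : V} (v0 : v ≠ 0) (e : r v = 0) (u : V) : r u = 0 := by
  have key : ∀ u w, w ∉ orbSpan ρ N u → r w = 0 → r u = 0 := fun u w hw e => by
    by_contra h0
    have h1 := hr (u + w)
    rw [map_add, e, add_zero] at h1
    have h2 := mem_orbSpan (ρ := ρ) (A := N) (u + w)
    rw [← h.orbSpan_eq h1 h0, h.orbSpan_eq (hr u) h0] at h2
    exact hw ((Submodule.add_mem_iff_right _ (mem_orbSpan u)).1 h2)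
  by_cases h1 : v ∈ orbSpan ρ N u
  swap
  · exact key u v h1 e
  obtain ⟨w, hw⟩ : ∃ w, w ∉ orbSpan ρ N v := by
    by_contra! h2
    exact h.orbSpan_ne_top hN v (eq_top_iff.2 fun w _ => h2 w)
  refine key u w (by rwa [← h.orbSpan_eq h1 v0]) (key w v (fun h2 => hw ?_) e)
  rw [h.orbSpan_eq h2 v0]
  exact mem_orbSpan w

/-- A reducible normal subgroup is abelian. -/
theorem comm_of_red [N.Normal] (hN : Red ρ N) : IsMulCommutative N := by
  let S : Subring (Module.End (ZMod p) V) :=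
    { carrier := {r | ∀ v, r v ∈ orbSpan ρ N v}
      mul_mem' := fun {a b} ha hb v => by
        have := orbSpan_le (hb v) (orbSpan_inv v)
        exact this (ha (b v))
      one_mem' := fun v => mem_orbSpan v
      add_mem' := fun {a b} ha hb v => add_mem (ha v) (hb v)
      zero_mem' := fun v => zero_mem _
      neg_mem' := fun {a} ha v => neg_mem (ha v) }
  have hS : ∀ r ∈ S, ∀ v, r v = 0 → r = 0 ∨ v = 0 := fun r hr v e =>
    or_iff_not_imp_right.2 fun v0 => LinearMap.ext (h.eq_zero_of_red hN hr v0 e)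
  obtain ⟨W, h1, -⟩ := hN
  obtain ⟨w, -, w0⟩ := W.ne_bot_iff.1 h1
  refine ⟨⟨fun a b => Subtype.ext (h.eq_of_apply w0 ?_)⟩⟩
  have hm : ∀ a : N, (ρ a).toLinearMap ∈ S := fun a v =>
    orbSpan_inv v (a : G) a.2 v (mem_orbSpan v)
  simpa using LinearMap.congr_fun (comm_of_subring S hS (hm a) (hm b)) w

/-- The centraliser of an irreducible subgroup is abelian. -/
theorem comm_cent [Nontrivial V] (hN : ¬ Red ρ N) : IsMulCommutative 𝐂(N) := by
  let S := Subring.centralizer {r : Module.End (ZMod p) V | ∃ n ∈ N, ↑(ρ n) = r}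
  have hS : ∀ r ∈ S, ∀ v, r v = 0 → r = 0 ∨ v = 0 := fun r hr v e => by
    by_contra! h1
    refine hN ⟨LinearMap.ker r, (Submodule.ne_bot_iff _).2 ⟨v, e, h1.2⟩,
      fun e => h1.1 (LinearMap.ker_eq_top.1 e), fun a ha u hu => ?_⟩
    have := LinearMap.congr_fun (hr _ ⟨a, ha, rfl⟩) u
    simpa [LinearMap.mem_ker.1 hu] using this.symm
  have hm : ∀ c : 𝐂(N), ↑(ρ c) ∈ S := by
    rintro c _ ⟨n, hn, rfl⟩
    exact LinearMap.ext fun v => by simpa using congrArg (fun g => ρ g v) (c.2 n hn)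
  obtain ⟨w, w0⟩ := exists_ne (0 : V)
  refine ⟨⟨fun a b => Subtype.ext (h.eq_of_apply w0 ?_)⟩⟩
  simpa using LinearMap.congr_fun (comm_of_subring S hS (hm a) (hm b)) w

theorem odd_of_two_dvd [Nontrivial V] (h2 : 2 ∣ Nat.card G) : Odd p := by
  refine hp.out.odd_of_ne_two ?_
  rintro rfl
  have h1 := h.card_add_one
  rw [natCard_eq_pow_finrank (K := ZMod 2) (V := V), Nat.card_zmod] at h1
  have := dvd_pow_self 2 (finrank_pos (R := ZMod 2) (M := V)).ne'
  omega

theorem not_dvd_card [Nontrivial V] : ¬ p ∣ Nat.card G := fun h2 => by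
  have h1 := h.card_add_one
  rw [natCard_eq_pow_finrank (K := ZMod p) (V := V), Nat.card_zmod] at h1
  have := dvd_pow_self p (finrank_pos (R := ZMod p) (M := V)).ne'
  rw [← h1] at this
  exact hp.out.one_lt.ne' (Nat.dvd_one.1 ((Nat.dvd_add_right h2).1 this))

variable [Finite G]

/-- The degree in the exceptional case. -/
theorem degree_of_red (hA : Red ρ A) (h2 : 2 ∣ Nat.card G) (hi : A.index ∣ 120)
    (h3 : 40 ∣ A.index → p ≠ 3) : ∃ r : ℕ, Odd r ∧ 3 ≤ r ∧ (∃ k, r = p ^ k) ∧ Nat.card V = r ^ 2 ∧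
      Nat.card A ∣ r - 1 ∧ r + 1 ∣ A.index ∧ Nat.card G + 1 = r ^ 2 := by
  haveI := nontrivial_of_red hA
  obtain ⟨k, d, hk, hd, h4, h5⟩ := h.exists_pow hA
  have ho := (h.odd_of_two_dvd h2).pow (n := k)
  have h6 := dvd_pow_self p hk.ne'
  have h7 : 3 ≤ p ^ k := by
    have := hp.out.two_le.trans (Nat.le_of_dvd (ho.pos) h6)
    obtain ⟨m, hm⟩ := ho
    omega
  have h8 := h.card_add_one
  rcases geom_arith h7 ho hd (by rw [A.card_mul_index, h8, h4]) h5 hi with ⟨rfl, h9⟩ | ⟨h9, h10⟩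
  · exact ⟨_, ho, h7, ⟨k, rfl⟩, h4, h5, h9, h8.trans h4⟩
  · exact absurd ((Nat.prime_dvd_prime_iff_eq hp.out Nat.prime_three).1 (h9 ▸ h6)) (h3 h10)

variable (hI : ∀ A : Subgroup G, A.Normal → IsCyclic A → Red ρ A)
include hI

section MaxAb

variable [hAn : A.Normal] (hAc : IsMulCommutative A)
  (hAm : ∀ B : Subgroup G, B.Normal → IsMulCommutative B → A ≤ B → B = A)
include hAc

theorem isCyclic_of_comm : IsCyclic A :=
  haveI := nontrivial_of_red (hI ⊥ inferInstance inferInstance)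
  h.fpfGrp.isCyclic_of_comm hAc

theorem lt_cent : A < 𝐂(A) := by
  haveI := nontrivial_of_red (hI ⊥ inferInstance inferInstance)
  haveI := h.isCyclic_of_comm hI hAc
  refine lt_of_le_of_ne (le_centralizer A) fun e => ?_
  obtain ⟨k, d, hk, hd, h4, h5⟩ := h.exists_pow (hI A hAn this)
  have h1 := Small.relIndex_centralizer_dvd_card_mulAut A
  rw [normalizer_eq_top, relIndex_top_right, ← e, IsCyclic.card_mulAut] at h1
  have h2 := (Nat.le_of_dvd (Nat.totient_pos.2 Nat.card_pos) h1).trans (Nat.totient_le _)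
  have h3 : 2 ≤ p ^ k := hp.out.two_le.trans (Nat.le_self_pow hk.ne' p)
  have h6 := Nat.le_of_dvd (by omega) h5
  have h7 := h.card_add_one
  rw [← A.card_mul_index, h4] at h7
  have h8 := Nat.pow_le_pow_right (by omega : 0 < p ^ k) hd
  have h9 := Nat.mul_le_mul h6 (h2.trans h6)
  generalize p ^ k = r at *
  obtain ⟨x, rfl⟩ : ∃ x, r = x + 1 := ⟨r - 1, by omega⟩
  rw [Nat.add_sub_cancel] at h9
  nlinarith

include hAm

theorem not_comm_cent : ¬ IsMulCommutative 𝐂(A) := fun hc =>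
  (h.lt_cent hI hAc).ne' (hAm _ inferInstance hc (le_centralizer A))

omit hI in
theorem cent_eq [Nontrivial V] [N.Normal] (hN : N ≤ 𝐂(A)) (hc : ¬ IsMulCommutative N) : 𝐂(N) = A :=
  hAm _ inferInstance (h.comm_cent fun h1 => hc (h.comm_of_red h1)) (le_centralizer_iff.1 hN)

omit hI in
theorem q8_or_sl [Nontrivial V] [N.Normal] (hN : N ≤ 𝐂(A)) (hc : ¬ IsMulCommutative N)
    (hm : ∀ M : Subgroup G, M.Normal → M ≤ N → ¬ IsMulCommutative M → M = N) :
    Nonempty (N ≃* QuaternionGroup 2) ∨ Nonempty (N ≃* SL(2, ZMod 5)) := by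
  have hF := h.fpfGrp
  by_cases hs : Group.IsSolvable N
  swap
  · obtain ⟨J, -, ⟨e⟩, h3⟩ := (hF.subgroup N).exists_sl_two_five hs
    obtain ⟨K, hK, ⟨e'⟩, h4⟩ := hF.exists_sl_two_five fun _ => hs inferInstance
    have h5 : J.map N.subtype = K := eq_of_le_of_card_ge (by
      rintro _ ⟨x, hx, rfl⟩
      exact le_of_sl_two_five e (K := K.comap N.subtype) (fun y hy => h4 y (by simpa using hy)) hx)
      (by rw [card_subtype, Nat.card_congr e.toEquiv, Nat.card_congr e'.toEquiv])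
    rw [← hm K hK (h5 ▸ map_subtype_le J) fun h6 => not_isSolvable_sl_two_five
      (isSolvable_of_equiv e' (isSolvable_of_isMulCommutative K))]
    exact Or.inr ⟨e'⟩
  have hC := h.cent_eq hAc hAm hN hc
  have h1 : IsMulCommutative ↥⁅N, N⁆ := by
    by_contra h1
    have h2 := hm _ inferInstance (commutator_le_left N N) h1
    exact hc (eq_bot_of_isSolvable_of_commutator_eq hs h2 ▸ inferInstance)
  have h2 : ⁅N, N⁆ ≤ 𝐂(N) := by
    rw [hC, ← hAm (⁅N, N⁆ ⊔ A) inferInstance (abelian_sup h1 hAc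
      ((commutator_le_left N N).trans hN)) le_sup_right]
    exact le_sup_left
  haveI : Group.IsNilpotent N := Subgroup.isNilpotent_of_ker_le_center Abelianization.of fun x hx =>
    mem_center_iff.2 fun y => Subtype.ext (h2 (N.map_subtype_commutator ▸
      mem_map_of_mem _ (Abelianization.ker_of N ▸ hx)) y y.2)
  obtain ⟨P⟩ : Nonempty (Sylow 2 N) := inferInstance
  rcases (hF.subgroup N).cyclic_or_quat P.isPGroup' with h3 | ⟨-, n, ⟨e⟩⟩
  · haveI := (hF.subgroup N).isZGroup_of_sylow P h3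
    exact absurd (IsCyclic.isMulCommutative (α := N)) hc
  haveI := P.characteristic_of_normal (isNilpotent_iff_sylow_normal.1 this 2 inferInstance P)
  obtain ⟨a, b, hq⟩ := Quat.exists_qgen (Nat.two_pow_pos _) e
  have h4 : 2 ≤ 2 ^ (n + 1) := Nat.le_self_pow n.succ_ne_zero 2
  replace hq := hq.map N.subtype_injective
  have h3 : (P : Subgroup N).map N.subtype = N := hm _ inferInstance (map_subtype_le _) fun h3 => by
    have := hq.commutator_eq
    rw [(commutator_eq_bot_iff_le_centralizer.2 (le_centralizer _)), eq_comm, zpowers_eq_bot] at this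
    exact hq.a_sq_ne_one h4 this
  have h5 : (N.subtype a ^ 2) ^ 2 = 1 := by
    rw [h3] at hq
    rcases hq.eq_of_central h4 (pow_mem hq.mem_a 2) fun y hy =>
      (h2 (hq.commutator_eq ▸ mem_zpowers _) y hy).symm with e | e
    · rw [e, one_pow]
    · rw [e, hq.z_sq]
  have h6 := Nat.le_of_dvd two_pos (hq.orderOf_a_sq ▸ orderOf_dvd_of_pow_eq_one h5)
  rw [le_antisymm h6 h4] at e
  exact Or.inl ⟨(MulEquiv.subgroupCongr h3).symm.trans
    (((P : Subgroup N).equivMapOfInjective _ N.subtype_injective).symm.trans e)⟩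

end MaxAb

/-- In the exceptional case there is a normal subgroup `Q₈` or `SL(2,5)` whose centraliser is
cyclic. -/
theorem exists_q8_or_sl : ∃ N : Subgroup G, N.Normal ∧ IsCyclic 𝐂(N) ∧
    (Nonempty (N ≃* QuaternionGroup 2) ∨ Nonempty (N ≃* SL(2, ZMod 5))) := by
  haveI := nontrivial_of_red (hI ⊥ inferInstance inferInstance)
  obtain ⟨A, ⟨hAn, hAc⟩, hAm⟩ := (Set.toFinite {A : Subgroup G | A.Normal ∧
    IsMulCommutative A}).exists_maximal ⟨⊥, inferInstance, inferInstance⟩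
  replace hAm : ∀ B : Subgroup G, B.Normal → IsMulCommutative B → A ≤ B → B = A :=
    fun B h1 h2 h3 => le_antisymm (hAm ⟨h1, h2⟩ h3) h3
  obtain ⟨N, ⟨hNn, hN, hc⟩, hm⟩ := (Set.toFinite {N : Subgroup G | N.Normal ∧ N ≤ 𝐂(A) ∧
    ¬ IsMulCommutative N}).exists_minimal ⟨𝐂(A), inferInstance, le_rfl, h.not_comm_cent hI hAc hAm⟩
  exact ⟨N, hNn, (h.cent_eq hAc hAm hN hc).symm ▸ h.isCyclic_of_comm hI hAc,
    h.q8_or_sl hAc hAm hN hc fun M h1 h2 h3 => le_antisymm h2 (hm ⟨h1, h2.trans hN, h3⟩ h2)⟩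

/-- The solvable exceptional case. -/
theorem exists_q8 [Group.IsSolvable G] : ∃ (N : Subgroup G) (f : G →* Equiv.Perm (Fin 4)) (r : ℕ),
    N.Normal ∧ Nonempty (N ≃* QuaternionGroup 2) ∧ f.ker = 𝐂(N) ∧ IsCyclic 𝐂(N) ∧
    (r = 5 ∨ r = 7 ∨ r = 11 ∨ r = 23) ∧ Nat.card V = r ^ 2 ∧ Nat.card 𝐂(N) ∣ r - 1 ∧
    r + 1 ∣ (𝐂(N)).index ∧ Nat.card G + 1 = r ^ 2 := by
  obtain ⟨N, _, hc, hN | ⟨⟨e⟩⟩⟩ := h.exists_q8_or_sl hI
  swap
  · exact absurd (isSolvable_of_equiv e inferInstance) not_isSolvable_sl_two_five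
  obtain ⟨f, hf⟩ := exists_hom_perm_four hN
  have h1 : (𝐂(N)).index ∣ 24 := by
    rw [← hf, index_ker]
    simpa [Fintype.card_perm, Nat.factorial] using f.range.card_subgroup_dvd_card
  have h8 : 8 ∣ Nat.card G := Inv.q8_card hN ▸ N.card_subgroup_dvd_card
  obtain ⟨r, ho, h3, -, h4, h5, h6, h7⟩ := h.degree_of_red (hI _ inferInstance hc)
    (Dvd.dvd.trans (by decide) h8) (h1.trans (by decide))
    fun h => absurd (h.trans h1) (by decide)
  refine ⟨N, f, r, inferInstance, hN, hf, hc, ?_, h4, h5, h6, h7⟩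
  have h9 := h6.trans h1
  have h10 := Nat.le_of_dvd (by decide) h9
  have h11 : r ≠ 3 := by
    rintro rfl
    have hT : N = ⊤ := eq_top_of_card_eq _ (by rw [Inv.q8_card hN]; omega)
    obtain ⟨x, hx, y, -, hx2, -⟩ := Inv.q8_exists hN
    have h12 : Nat.card (zpowers x) = 4 := by rw [Nat.card_zpowers, Inv.q8_orderOf hN hx hx2]
    have h13 := (zpowers x).card_mul_index
    obtain ⟨k, d, hk, hd, e1, e2⟩ := h.exists_pow (hI (zpowers x)
      (normal_of_index_eq_two (by rw [h12] at h13; omega)) inferInstance)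
    have h14 : 2 ≤ p ^ k := hp.out.two_le.trans (Nat.le_self_pow hk.ne' p)
    have h15 := Nat.le_of_dvd (by omega) e2
    have h16 := (Nat.pow_le_pow_left (by omega : 5 ≤ p ^ k) 2).trans
      (Nat.pow_le_pow_right (by omega) hd)
    omega
  obtain ⟨m, hm⟩ := ho
  have : r < 24 := by omega
  interval_cases r <;> omega

omit hI in
/-- A non-solvable regular group has no irreducible abelian normal subgroup. -/
theorem red_of_not_le [Nontrivial V] [A.Normal] (hA : IsCyclic A)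
    (hG : ∀ C : Subgroup G, C.Normal → IsCyclic C → ¬ commutator G ≤ C) : Red ρ A := by
  by_contra h1
  exact hG 𝐂(A) inferInstance (h.fpfGrp.isCyclic_of_comm (h.comm_cent h1))
    (der1_cent_cyclic hA (by simp [normalizer_eq_top]))

omit hI in
/-- **Zassenhaus**: the non-solvable case. -/
theorem nonsolvable [Nontrivial V] (hns : ¬ Group.IsSolvable G) :
    ∃ (J M : Subgroup G), J.Normal ∧ M.Normal ∧
    Nonempty (J ≃* SL(2, ZMod 5)) ∧ J ⊓ M = ⊥ ∧ J ⊔ M = ⊤ ∧
    (Nat.card V = 121 ∧ Nat.card M = 1 ∨ Nat.card V = 841 ∧ Nat.card M = 7 ∨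
      Nat.card V = 3481 ∧ Nat.card M = 29) := by
  obtain ⟨J, M, f, _, _, ⟨e⟩, h1, h2, h3, h4, h5⟩ := h.fpfGrp.nonsolvable_structure hns
  have hc : IsCyclic 𝐂(J) := h.fpfGrp.isCyclic_of_comm (h.comm_cent fun hr =>
    haveI := h.comm_of_red hr
    not_isSolvable_sl_two_five (isSolvable_of_equiv e (isSolvable_of_isMulCommutative J)))
  have hJ : Nat.card J = 120 := by rw [Nat.card_congr e.toEquiv, card_sl_two_five]
  have h6 : 120 ∣ Nat.card G := hJ ▸ J.card_subgroup_dvd_card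
  obtain ⟨r, ho, h7, ⟨k, hk⟩, h8, -, h9, h10⟩ := h.degree_of_red
    (h.red_of_not_le hc fun C _ _ hC => hns (isSolvable_top_iff.1 (isSolvable_of_commutator_le hC
      (isSolvable_of_isMulCommutative C)))) (Dvd.dvd.trans (by decide) h6) (by
        rw [← h1, index_ker]
        simpa [Fintype.card_perm, Nat.factorial] using f.range.card_subgroup_dvd_card)
    (by rintro - rfl; exact h.not_dvd_card (Dvd.dvd.trans (by decide) h6))
  have h11 : r + 1 ∣ 120 := h9.trans (by
    rw [← h1, index_ker]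
    simpa [Fintype.card_perm, Nat.factorial] using f.range.card_subgroup_dvd_card)
  have hb : J ⊓ M = ⊥ := (disjoint_of_coprime_natCard
    (hJ ▸ ((h5.pow_right 3).coprime_dvd_right (by decide)).symm)).eq_bot
  have h12 : (J ⊔ M).index ∣ 2 := by
    rw [h4, ← h1, ← comap_map_eq, h2, index_comap, ← alternatingGroup.index_eq_two (α := Fin 5)]
    exact relIndex_dvd_index_of_normal _ _
  have h13 := (J ⊔ M).card_mul_index
  obtain ⟨e'⟩ := Perm.nonempty_sup_equiv_prod J M hb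
  rw [Nat.card_congr e'.toEquiv, Nat.card_prod, hJ] at h13
  have h14 : r ≠ 119 := by
    rintro rfl
    have e1 := (Nat.prime_dvd_prime_iff_eq (by norm_num) hp.out).1
      ((by norm_num : Nat.Prime 7).dvd_of_dvd_pow (hk ▸ (by decide : 7 ∣ 119)))
    have e2 := (Nat.prime_dvd_prime_iff_eq (by norm_num) hp.out).1
      ((by norm_num : Nat.Prime 17).dvd_of_dvd_pow (hk ▸ (by decide : 17 ∣ 119)))
    omega
  have h15 : ¬ 3 ∣ Nat.card M := fun h => absurd (Nat.eq_one_of_dvd_coprimes h5 h (by decide))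
    (by decide)
  have h16 : r = 11 ∨ r = 19 ∨ r = 29 ∨ r = 59 := by
    have := Nat.le_of_dvd (by decide) h11
    have : r < 120 := by omega
    clear hk
    interval_cases r <;> omega
  have h17 : (J ⊔ M).index = 1 := by
    refine ((Nat.dvd_prime Nat.prime_two).1 h12).resolve_right fun h2 => ?_
    rw [h2] at h13
    rcases h16 with rfl | rfl | rfl | rfl <;> omega
  rw [h17] at h13
  refine ⟨J, M, inferInstance, inferInstance, ⟨e⟩, hb, index_eq_one.1 h17, ?_⟩
  rcases h16 with rfl | rfl | rfl | rfl <;> omega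

omit hI in
/-- A solvable regular group of even order without subgroup of index two. -/
theorem exists_sl_two_three [Nontrivial V] [Group.IsSolvable G] (hp2 : p ≠ 2)
    (h2 : ∀ N : Subgroup G, N.Normal → N.index ≠ 2) :
    (Nat.card V = 25 ∧ Nonempty (G ≃* SL(2, ZMod 3))) ∨
      (Nat.card V = 121 ∧ Nonempty (G ≃* SL(2, ZMod 3) × Multiplicative (ZMod 5))) := by
  have hF := h.fpfGrp
  have hn : ¬ HasNormalPComplement 2 G := fun hn => by
    have h1 := Transfer.hasNormalPComplement_iff_card_pResidual.1 hn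
    rw [Transfer.pResidual_eq_top_iff.2 h2, card_top] at h1
    have h3 := h.card_add_one
    rw [natCard_eq_pow_finrank (K := ZMod p) (V := V), Nat.card_zmod] at h3
    have h4 := (hp.out.odd_of_ne_two hp2).pow (n := finrank (ZMod p) V)
    rw [← h3] at h4
    exact Nat.not_odd_iff_even.2 (Nat.coprime_two_right.1 h1).add_one h4
  obtain ⟨g, -, hg⟩ := hF.exists_perm_four hn
  obtain ⟨N, f, r, _, hN, hf, hc, hr, h3, h4, h5, h6⟩ := h.exists_q8 fun A _ hA =>
    h.red_of_not_le hA fun C _ _ hC => by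
      have h1 := (Subgroup.map_eq_bot_iff _).2 (hC.trans (le_ker_of_isZGroup inferInstance hg))
      rw [_root_.commutator_def, map_commutator, ← MonoidHom.range_eq_map,
        commutator_eq_bot_iff_le_centralizer] at h1
      exact absurd (h1 (hg (show Equiv.swap 0 1 * Equiv.swap 1 2 ∈ _ from
        Equiv.Perm.mem_alternatingGroup.2 (by decide))) _
        (hg (show Equiv.swap 1 2 * Equiv.swap 2 3 ∈ _ from
        Equiv.Perm.mem_alternatingGroup.2 (by decide)))) (by decide)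
  have h7 : (𝐂(N)).index ∣ 12 := by
    have h7 : f.range ≤ alternatingGroup (Fin 4) := by
      have h8 := relIndex_dvd_index_of_normal (alternatingGroup (Fin 4)) f.range
      rw [alternatingGroup.index_eq_two, Nat.dvd_prime Nat.prime_two] at h8
      exact relIndex_eq_one.1 (h8.resolve_right fun e =>
        h2 ((alternatingGroup (Fin 4)).comap f) inferInstance (by rwa [index_comap]))
    have h8 := PSL2.card_alternating_fin 4 (by decide)
    rw [← hf, index_ker, show 12 = Nat.card (alternatingGroup (Fin 4)) by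
      rw [show Nat.factorial 4 = 24 from rfl] at h8; omega]
    exact card_dvd_of_le h7
  have h8 := h5.trans h7
  replace hr : r = 5 ∨ r = 11 := by rcases hr with rfl | rfl | rfl | rfl <;> omega
  obtain ⟨J, _, h9, h10⟩ := hF.exists_three
  obtain ⟨e⟩ : Nonempty (J ≃* SL(2, ZMod 3)) := by
    haveI : Fact (Nat.Prime 3) := ⟨Nat.prime_three⟩
    rcases h10 with rfl | h10 | h10 | ⟨⟨e⟩⟩
    · obtain ⟨x, hx⟩ := exists_prime_orderOf_dvd_card' (G := G) 3 (by
        rcases hr with rfl | rfl <;> omega)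
      rw [mem_bot.1 (h9 x hx), orderOf_one] at hx
      exact absurd hx (by decide)
    · have : J ≤ 𝐂(N) := fun x hx y hy => (commute_of_normal_of_disjoint N J inferInstance
        inferInstance (disjoint_of_coprime_natCard (by rw [h10, Inv.q8_card hN]; decide)) _ _
        hy hx).eq
      have := (h10 ▸ card_dvd_of_le this).trans h4
      rcases hr with rfl | rfl <;> omega
    · exact h10
    · exact absurd (isSolvable_of_equiv e inferInstance) not_isSolvable_sl_two_five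
  have hJ : Nat.card J = 24 := by rw [Nat.card_congr e.toEquiv, card_sl_two_three]
  rcases hr with rfl | rfl
  · obtain rfl : J = ⊤ := eq_top_of_card_eq _ (by omega)
    exact Or.inl ⟨h3, ⟨topEquiv.symm.trans e⟩⟩
  have h11 := (𝐂(N)).card_mul_index
  rw [Nat.dvd_antisymm h7 h5] at h11
  obtain ⟨x, hx⟩ := exists_prime_orderOf_dvd_card' (G := 𝐂(N)) 5 (by omega)
  have hB : Nat.card (zpowers (x : G)) = 5 := by rw [Nat.card_zpowers, orderOf_coe, hx]
  haveI : (zpowers (x : G)).Normal := normalizer_eq_top_iff.1 (eq_top_iff.2 (by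
    have := norm_le_of_le_cyclic hc (zpowers_le.2 x.2)
    rwa [normalizer_eq_top] at this))
  obtain ⟨e'⟩ := Perm.nonempty_sup_equiv_prod J (zpowers (x : G))
    (disjoint_of_coprime_natCard (by rw [hJ, hB]; decide)).eq_bot
  have h12 : J ⊔ zpowers (x : G) = ⊤ := eq_top_of_card_eq _ (by
    rw [Nat.card_congr e'.toEquiv, Nat.card_prod, hJ, hB]; omega)
  exact Or.inr ⟨h3, ⟨(topEquiv.symm.trans (MulEquiv.subgroupCongr h12.symm)).trans (e'.trans
    (e.prodCongr (mulEquivOfPrimeCardEq hB (by simp))))⟩⟩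

end Reg

section Plane

open Matrix

theorem pow_eq_one_of_mulVec_eq {M : Matrix (Fin 2) (Fin 2) (ZMod p)} (hd : M.det = 1)
    {v : Fin 2 → ZMod p} (hv : v ≠ 0) (h : M *ᵥ v = v) : M ^ p = 1 := by
  have h1 : (M - 1).det = 0 := exists_mulVec_eq_zero_iff.1 ⟨v, hv, by rw [sub_mulVec, h]; simp⟩
  have h2 : (M - 1) ^ 2 = 0 := by
    rw [det_fin_two] at hd h1
    simp only [Matrix.sub_apply, one_apply_eq, ne_eq, zero_ne_one, not_false_eq_true, one_apply_ne,
      one_ne_zero, sub_zero] at h1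
    ext i j
    fin_cases i <;> fin_cases j <;> simp [pow_two, mul_apply, Fin.sum_univ_two]
    · linear_combination (M 0 0) * hd - (M 0 0) * h1 - hd
    · linear_combination (M 0 1) * hd - (M 0 1) * h1
    · linear_combination (M 1 0) * hd - (M 1 0) * h1
    · linear_combination (M 1 1) * hd - (M 1 1) * h1 - hd
  rw [← sub_add_cancel M 1, add_pow_char_of_commute _ (Commute.one_right _), one_pow,
    pow_eq_zero_of_le hp.out.two_le h2, zero_add]

/-- The stabiliser of a vector in the general linear group. -/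
def vecStab (v : Fin 2 → ZMod p) : Subgroup (GL (Fin 2) (ZMod p)) where
  carrier := {g | g.1 *ᵥ v = v}
  one_mem' := one_mulVec v
  mul_mem' := fun {a b} ha hb => by
    change (a.1 * b.1) *ᵥ v = v
    rw [← mulVec_mulVec, hb, ha]
  inv_mem' := fun {a} ha => by
    change (a⁻¹).1 *ᵥ v = v
    conv_lhs => rw [← ha, mulVec_mulVec, Units.inv_mul, one_mulVec]

theorem eq_one_of_det {H : Subgroup (GL (Fin 2) (ZMod p))} (hd : H ≤ GeneralLinearGroup.det.ker)
    (hc : (Nat.card H).Coprime p) {g : GL (Fin 2) (ZMod p)} (hg : g ∈ H) {v : Fin 2 → ZMod p}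
    (hv : v ≠ 0) (h : g ∈ vecStab v) : g = 1 :=
  Transfer.eq_one_of_pow_pow_eq_one_of_coprime (p := p) (k := 1) (Units.ext (by
    simpa using pow_eq_one_of_mulVec_eq (congrArg Units.val (hd hg)) hv h))
    (coprime_orderOf_of_mem' hg hc)

theorem regular_of_card {H : Subgroup (GL (Fin 2) (ZMod p))} (hc : Nat.card H = p ^ 2 - 1)
    (hf : ∀ g ∈ H, ∀ v, v ≠ 0 → g ∈ vecStab v → g = 1) (v w : Fin 2 → ZMod p) (hv : v ≠ 0)
    (hw : w ≠ 0) : ∃! h : H, h.1.1 *ᵥ v = w := by
  have key : ∀ (g : GL (Fin 2) (ZMod p)) u, (g⁻¹).1 *ᵥ g.1 *ᵥ u = u := fun g u => by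
    rw [mulVec_mulVec, Units.inv_mul, one_mulVec]
  let φ : H → {u : Fin 2 → ZMod p // u ≠ 0} := fun h => ⟨h.1.1 *ᵥ v, fun e => hv (by
    rw [← key h v, e, mulVec_zero])⟩
  have hi : Function.Injective φ := fun a b e => Subtype.ext (inv_mul_eq_one.1 (hf _
    (mul_mem (inv_mem b.2) a.2) v hv (by
      change ((b.1⁻¹).1 * a.1.1) *ᵥ v = v
      rw [← mulVec_mulVec, show a.1.1 *ᵥ v = b.1.1 *ᵥ v from congrArg Subtype.val e, key]))).symm
  obtain ⟨g, hg⟩ := ((Nat.bijective_iff_injective_and_card φ).2 ⟨hi, by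
    rw [hc, natCard_ne_zero_subtype]; simp⟩).2 ⟨w, hw⟩
  exact ⟨g, congrArg Subtype.val hg, fun a ha => hi (Subtype.ext
    (ha.trans (congrArg Subtype.val hg).symm))⟩

/-- Two matrices generating a binary icosahedral group. -/
theorem card_closure_eq_120 {A B z : G} (hz : orderOf z = 2) (hc : ∀ g, g * z = z * g) {y w : G}
    (ey : y = A * B * A * B * A * B * B * A) (ew : w = A * B * A * B * B * A * B * B)
    (hx : B ^ 3 = 1) (hy : y ^ 3 = 1) (hw : w ^ 3 = 1) (h1 : (B * y) ^ 2 = z) (h2 : (B * w) ^ 2 = z)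
    (h3 : (y * w) ^ 2 = z) (hA : A = w * w * y * y) : Nat.card (closure ({A, B} : Set G)) = 120 := by
  obtain ⟨e⟩ := equiv_sl_two_five hx hy hw hz h1 h2 h3 (hc _) (hc _) (hc _)
  rw [← card_sl_two_five, ← Nat.card_congr e.toEquiv]
  have a : A ∈ closure ({A, B} : Set G) := subset_closure (by simp)
  have b : B ∈ closure ({A, B} : Set G) := subset_closure (by simp)
  have hy' : y ∈ closure ({B, y, w} : Set G) := subset_closure (by simp)
  have hw' : w ∈ closure ({B, y, w} : Set G) := subset_closure (by simp)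
  congr 2
  refine le_antisymm ((closure_le _).2 ?_) ((closure_le _).2 ?_)
  · rintro _ (rfl | rfl)
    · rw [SetLike.mem_coe]
      conv_rhs => rw [hA]
      exact mul_mem (mul_mem (mul_mem hw' hw') hy') hy'
    · exact subset_closure (by simp)
  · rintro _ (rfl | rfl | rfl)
    · exact b
    · rw [ey, SetLike.mem_coe]
      repeat first | assumption | apply mul_mem
    · rw [ew, SetLike.mem_coe]
      repeat first | assumption | apply mul_mem

theorem orderOf_neg_one_gl (h : (-1 : ZMod p) ≠ 1) : orderOf (-1 : GL (Fin 2) (ZMod p)) = 2 :=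
  orderOf_eq_prime (by simp) fun e => h (by
    simpa using congrArg (fun g : GL (Fin 2) (ZMod p) => g.1 0 0) e)

end Plane

end Cfsg.Lib.Frobenius
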