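import Cfsg.Agent.Lib.Frobenius.NearField
import Cfsg.Agent.Lib.BG.Hall
import Cfsg.Agent.Lib.Coprime.FT

/-!
# TI-subgroups that are Hall subgroups of their normalisers in π-separable groups
-/

set_option autoImplicit false

namespace Cfsg.Lib.Frobenius

open Subgroup Cfsg.Lib.BG Cfsg.Lib.Core

variable {G : Type*} [Group G] [Finite G] {H O : Subgroup G} (hTI : IsTISubset (H : Set G))
include hTI

omit [Finite G] in
theorem norm_le_of_ti {P : Subgroup G} (hP : P ≤ H) (h1 : P ≠ ⊥) : 𝐍(P) ≤ 𝐍(H) := fun g hg => by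
  obtain ⟨x, hx, x1⟩ := exists_ne_one h1
  exact by_contra fun h => x1 (hTI g h x (hP hx) (hP (conj_mem_of_norm hg hx)))

theorem hall_of_ti (hH : (Nat.card H).Coprime (H.relIndex 𝐍(H))) :
    Hall {q | q ∣ Nat.card H} H ⊤ := by
  refine Hall.mk' le_top (PiGrp.self H) (PiNat.compl_iff.2 fun p hp h1 h2 => ?_)
  haveI := Fact.mk hp
  obtain ⟨P, hP⟩ := Syl.exists p H
  exact (Syl.of_norm_le (hP.of_Hall (Hall.of_coprime (le_norm H) hH) h1) le_top
    (inf_le_right.trans (norm_le_of_ti hTI hP.le (hP.ne_bot' h1)))).not_dvd'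
    (h2.trans (relIndex_dvd_left hP.le ⊤))

/-- A TI-subgroup acting coprimely and nontrivially on a normal subgroup is a Frobenius
complement. -/
theorem fpf_of_ti [O.Normal] (hc : (Nat.card H).Coprime (Nat.card O)) (hn : ¬ O ≤ 𝐍(H)) :
    Fpf H := by
  have h3 : O ⊓ 𝐍(H) ≤ 𝐂(H) := cent_of_norm_of_disjoint inf_le_right
    (norm_inf le_normalizer_of_normal (norm_norm (le_norm H)))
    (eq_bot_mono (disjoint_of_coprime hc.symm) (inf_le_inf_right H inf_le_left))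
  obtain ⟨q, hq, Q, hQ, h5, h6⟩ : ∃ q : ℕ, q.Prime ∧ ∃ Q, Syl q Q O ∧ H ≤ 𝐍(Q) ∧ ¬ Q ≤ 𝐂(H) := by
    by_contra! h
    refine hn (norm_of_cent (Syl.le_of_forall fun q hq _ => ?_))
    haveI := Fact.mk hq
    obtain ⟨Q, a, b⟩ := Syl.exists_inv (p := q) le_normalizer_of_normal hc
      (Coprime.isSolvable_or_of_coprime hc)
    exact ⟨Q, a, h q hq Q a b⟩
  haveI := Fact.mk hq
  by_cases h1 : H = ⊥
  · exact absurd (by rw [h1, norm_bot]; exact le_top) hn
  have h7 := norm_inf h5 (norm_cent (le_norm H))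
  obtain ⟨L, _, _, C, hC, ⟨e⟩⟩ := FGS.exists_fc_of_section.{0} (U := Q ⊓ 𝐍(Q ⊓ 𝐂(H)))
    (W := Q ⊓ 𝐂(H)) h1 (norm_inf h5 (norm_norm h7)) h7 inf_le_right
    (nil_norm_grow hQ.nil (inf_lt_left.2 h6)).not_ge fun x hx h7 u hu e =>
      ⟨hu.1, h3 ⟨hQ.le hu.1, by_contra fun h8 => h7 (hTI u h8 x hx (by
        rwa [← Coprime.commutator_eq_one_of_commute (mem_cent.1 e.2 x hx)
          (Coprime.orderOf_coprime_of_mem hc hx (hQ.le e.1)), mul_inv_cancel_right]))⟩⟩
  exact fpf_of_fc hC e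

variable (hnn : ¬ H.Normal) (hH : (Nat.card H).Coprime (H.relIndex 𝐍(H)))
  (hsep : ∃ (n : ℕ) (M : Fin (n + 1) → Subgroup G), M 0 = ⊥ ∧ M (Fin.last n) = ⊤ ∧ Monotone M ∧
    (∀ i, (M i).Normal) ∧ ∀ i : Fin n,
      (∀ q : ℕ, q.Prime → q ∣ (M i.castSucc).relIndex (M i.succ) → q ∣ Nat.card H) ∨
        ((M i.castSucc).relIndex (M i.succ)).Coprime (Nat.card H))
include hnn hH hsep

theorem core_sup_norm_of_ti : pPrimeCore (Nat.card H) G ⊔ 𝐍(H) = ⊤ := by
  obtain ⟨n, M, h0, h1, -, h2, h3⟩ := hsep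
  have hO := pPrimeCore_coprime (Nat.card H) G
  obtain ⟨L, _, h4, h5⟩ := Coprime.separable_of_chain (π := {q | q ∣ Nat.card H})
    ⟨n, M, h0, h1, h2, fun i => (h3 i).imp_right fun h q hq a b =>
      hq.one_lt.ne' (Nat.eq_one_of_dvd_coprimes h a b)⟩ (pPrimeCore (Nat.card H) G) fun e => by
    rw [e, card_top] at hO
    exact hnn (card_eq_one.1 (Nat.eq_one_of_dvd_coprimes hO H.card_subgroup_dvd_card dvd_rfl) ▸
      inferInstance)
  have hL := hall_of_ti hTI hH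
  rcases h5 with h5 | h5
  · have h6 := (hL.inf le_top le_normalizer_of_normal).sup_eq h4.le h5
    obtain ⟨p, hp, hd⟩ := Nat.exists_prime_and_dvd (n := Nat.card ↥(H ⊓ L)) fun e => by
      rw [card_eq_one.1 e, sup_bot_eq] at h6
      exact h4.ne h6
    haveI := Fact.mk hp
    obtain ⟨P, hP⟩ := Syl.exists p (H ⊓ L)
    have h7 := (hP.of_Hall (hL.inf le_top le_normalizer_of_normal)
      (hd.trans (card_dvd inf_le_left))).frattini (M := ⊤) ⟨le_top, le_normalizer_of_normal⟩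
    rw [eq_top_iff, ← h7, ← h6]
    exact sup_le (sup_le le_sup_left (inf_le_left.trans ((le_norm H).trans le_sup_right)))
      (inf_le_right.trans ((norm_le_of_ti hTI (hP.le.trans inf_le_left) (hP.ne_bot' hd)).trans
        le_sup_right))
  · refine absurd (le_pPrimeCore inferInstance ?_) h4.not_ge
    rw [← Core.card_mul_relIndex h4.le]
    exact hO.mul_left (Nat.coprime_of_dvd fun q hq a b => h5 q hq b a)

theorem fpf_of_ti_separable : Fpf H :=
  fpf_of_ti hTI (pPrimeCore_coprime (Nat.card H) G).symm fun h => hnn (normalizer_eq_top_iff.1 (by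
    rw [← core_sup_norm_of_ti hTI hnn hH hsep, sup_eq_right.2 h]))

end Cfsg.Lib.Frobenius
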